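import Cfsg.Agent.H405.EPS.Lift

/-!
Dimensions of the weight spaces of an elementary abelian group of order 16 with a symmetry of order 5.
-/

set_option autoImplicit false

namespace Cfsg.Agent.H405.EPS.Dims

open Module Cfsg.Agent.H405.EPS.Lift

section

variable {F V : Type*} [Field F] [AddCommGroup V] [Module F V]

/-- signs -/
def sg (F : Type*) [Field F] (b : Bool) : F := if b then -1 else 1

@[simp] theorem sg_true : sg F true = -1 := rfl
@[simp] theorem sg_false : sg F false = 1 := rfl

/-- the eigenspace of `w` for the sign `b` -/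
def E (w : (Module.End F V)ˣ) (b : Bool) : Submodule F V := Module.End.eigenspace (w : Module.End F V) (sg F b)

theorem mem_E {w : (Module.End F V)ˣ} {b : Bool} {x : V} : x ∈ E w b ↔ (w : Module.End F V) x = sg F b • x := by
  rw [E, Module.End.mem_eigenspace_iff]

theorem two_split {w : (Module.End F V)ˣ} (h2 : (2 : F) ≠ 0) [FiniteDimensional F V] (hw : w * w = 1)
    (U : Submodule F V) (hU : ∀ x ∈ U, (w : Module.End F V) x ∈ U) :
    finrank F U = finrank F (U ⊓ E w false : Submodule F V) + finrank F (U ⊓ E w true : Submodule F V) := by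
  have hww : ∀ x, (w : Module.End F V) ((w : Module.End F V) x) = x := by
    intro x
    have : ((w * w : (Module.End F V)ˣ) : Module.End F V) x = x := by rw [hw]; rfl
    exact this
  rw [← Submodule.finrank_sup_add_finrank_inf_eq]
  have e1 : (U ⊓ E w false) ⊓ (U ⊓ E w true) = ⊥ := by
    rw [eq_bot_iff]
    intro x hx
    obtain ⟨⟨-, hx1⟩, -, hx2⟩ := hx
    rw [SetLike.mem_coe, mem_E] at hx1 hx2
    rw [hx1, sg_false, sg_true, one_smul, neg_smul, one_smul] at hx2
    have h3 : (2 : F) • x = 0 := by rw [two_smul]; nth_rewrite 1 [hx2]; simp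
    rw [Submodule.mem_bot]
    exact (smul_eq_zero.1 h3).resolve_left h2
  have e2 : (U ⊓ E w false) ⊔ (U ⊓ E w true) = U := by
    apply le_antisymm (sup_le inf_le_left inf_le_left)
    intro x hx
    have h3 : x = (2 : F)⁻¹ • (x + (w : Module.End F V) x) + (2 : F)⁻¹ • (x - (w : Module.End F V) x) := by
      rw [← smul_add, add_add_sub_cancel, ← two_smul F x, smul_smul, inv_mul_cancel₀ h2, one_smul]
    rw [h3]
    apply Submodule.add_mem_sup
    · refine ⟨U.smul_mem _ (U.add_mem hx (hU x hx)), ?_⟩
      rw [SetLike.mem_coe, mem_E, map_smul, map_add, hww, sg_false, one_smul, add_comm]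
    · refine ⟨U.smul_mem _ (U.sub_mem hx (hU x hx)), ?_⟩
      rw [SetLike.mem_coe, mem_E, map_smul, map_sub, hww, sg_true, neg_smul, one_smul, ← smul_neg, neg_sub]
  rw [e1, e2, finrank_bot, add_zero]

/-- stability -/
def St (w : (Module.End F V)ˣ) (U : Submodule F V) : Prop := ∀ x ∈ U, (w : Module.End F V) x ∈ U

theorem St.top (w : (Module.End F V)ˣ) : St w (⊤ : Submodule F V) := fun _ _ => trivial

theorem St.inf {w : (Module.End F V)ˣ} {U U' : Submodule F V} (h : St w U) (h' : St w U') : St w (U ⊓ U') :=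
  fun x hx => ⟨h x hx.1, h' x hx.2⟩

theorem St.E {w v : (Module.End F V)ˣ} (h : w * v = v * w) (b : Bool) : St w (E v b) := by
  intro x hx
  rw [mem_E] at hx ⊢
  have h1 : (v : Module.End F V) ((w : Module.End F V) x) = (w : Module.End F V) ((v : Module.End F V) x) := by
    have : ((v * w : (Module.End F V)ˣ) : Module.End F V) x = ((w * v : (Module.End F V)ˣ) : Module.End F V) x := by
      rw [h]
    exact this
  rw [h1, hx, map_smul]

/-- the linear equivalence of a unit -/
def le (g : (Module.End F V)ˣ) : V ≃ₗ[F] V := LinearMap.GeneralLinearGroup.toLinearEquiv g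

theorem le_apply (g : (Module.End F V)ˣ) (x : V) : le g x = (g : Module.End F V) x := rfl

theorem le_symm_apply (g : (Module.End F V)ˣ) (x : V) :
    (le g).symm x = ((g⁻¹ : (Module.End F V)ˣ) : Module.End F V) x := rfl

theorem units_mul_apply (g w : (Module.End F V)ˣ) (x : V) :
    ((g * w : (Module.End F V)ˣ) : Module.End F V) x = (g : Module.End F V) ((w : Module.End F V) x) := rfl

theorem inv_apply (g : (Module.End F V)ˣ) (x : V) :
    ((g⁻¹ : (Module.End F V)ˣ) : Module.End F V) ((g : Module.End F V) x) = x := by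
  rw [← units_mul_apply, inv_mul_cancel]; rfl

theorem apply_inv (g : (Module.End F V)ˣ) (x : V) :
    (g : Module.End F V) (((g⁻¹ : (Module.End F V)ˣ) : Module.End F V) x) = x := by
  rw [← units_mul_apply, mul_inv_cancel]; rfl

theorem E_conj (g w : (Module.End F V)ˣ) (b : Bool) :
    (E w b).map (le g : V →ₗ[F] V) = E (g * w * g⁻¹) b := by
  ext x
  rw [Submodule.mem_map_equiv, mem_E, mem_E, le_symm_apply, units_mul_apply, units_mul_apply]
  constructor
  · intro h
    rw [h, map_smul, apply_inv]
  · intro h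
    have := congrArg (fun y => ((g⁻¹ : (Module.End F V)ˣ) : Module.End F V) y) h
    simp only [inv_apply, map_smul] at this
    exact this

theorem map_inf_le (g : (Module.End F V)ˣ) (U U' : Submodule F V) :
    (U ⊓ U').map (le g : V →ₗ[F] V) = U.map (le g : V →ₗ[F] V) ⊓ U'.map (le g : V →ₗ[F] V) := by
  ext x
  simp only [Submodule.mem_inf, Submodule.mem_map_equiv]

theorem finrank_map_le (g : (Module.End F V)ˣ) (U : Submodule F V) :
    finrank F (U.map (le g : V →ₗ[F] V)) = finrank F U := LinearEquiv.finrank_map_eq (le g) U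

theorem sg_mul_sg (b : Bool) : sg F b * sg F b = 1 := by cases b <;> simp

theorem neg_apply' (w : (Module.End F V)ˣ) (x : V) :
    ((-w : (Module.End F V)ˣ) : Module.End F V) x = -((w : Module.End F V) x) := rfl

theorem E_neg (w : (Module.End F V)ˣ) (b : Bool) : E (-w) b = E w (!b) := by
  ext x
  rw [mem_E, mem_E, neg_apply']
  cases b
  · simp only [sg_false, Bool.not_false, sg_true, one_smul, neg_smul]
    exact neg_eq_iff_eq_neg
  · simp only [sg_false, Bool.not_true, sg_true, one_smul, neg_smul]
    exact ⟨fun h => neg_injective h, fun h => by rw [h]⟩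

theorem sg_xor (a b : Bool) : sg F (xor a b) = sg F a * sg F b := by cases a <;> cases b <;> simp

/-- eigenspaces of a product, split by the first factor -/
theorem E_mul_inf {A B : (Module.End F V)ˣ} (hA : A * A = 1) (a b : Bool) :
    E (A * B) b ⊓ E A a = E A a ⊓ E B (xor a b) := by
  ext x
  rw [Submodule.mem_inf, Submodule.mem_inf, mem_E, mem_E, mem_E, units_mul_apply, and_comm]
  constructor
  · rintro ⟨h1, h2⟩
    refine ⟨h1, ?_⟩
    have h3 : (A : Module.End F V) ((A : Module.End F V) ((B : Module.End F V) x)) = (B : Module.End F V) x := by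
      rw [← units_mul_apply A A, hA]; rfl
    rw [← h3, h2, map_smul, h1, smul_smul, sg_xor, mul_comm]
  · rintro ⟨h1, h2⟩
    refine ⟨h1, ?_⟩
    rw [h2, map_smul, h1, smul_smul, sg_xor, mul_comm (sg F a), mul_assoc, sg_mul_sg, mul_one]

/-- the joint eigenspaces for four commuting elements with product -/
theorem E_four (A B C D : (Module.End F V)ˣ) (a b c d : Bool) :
    E B a ⊓ E C b ⊓ E D c ⊓ E (A * B * C * D) d = E A (xor (xor (xor a b) c) d) ⊓ E B a ⊓ E C b ⊓ E D c := by
  ext x
  simp only [Submodule.mem_inf, mem_E, units_mul_apply]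
  constructor
  · rintro ⟨⟨⟨h1, h2⟩, h3⟩, h4⟩
    refine ⟨⟨⟨?_, h1⟩, h2⟩, h3⟩
    rw [h3, map_smul, map_smul, map_smul, h2, map_smul, map_smul, h1, map_smul] at h4
    have h5 : (A : Module.End F V) x = (sg F c * sg F b * sg F a) • (sg F c • sg F b • sg F a • (A : Module.End F V) x) := by
      rw [smul_smul, smul_smul, smul_smul]
      have : sg F c * sg F b * sg F a * sg F c * sg F b * sg F a = 1 := by
        calc sg F c * sg F b * sg F a * sg F c * sg F b * sg F a
            = (sg F a * sg F a) * (sg F b * sg F b) * (sg F c * sg F c) := by ring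
          _ = 1 := by simp only [sg_mul_sg, mul_one]
      rw [this, one_smul]
    rw [h5, h4, smul_smul]
    congr 1
    simp only [sg_xor]
    ring
  · rintro ⟨⟨⟨h0, h1⟩, h2⟩, h3⟩
    refine ⟨⟨⟨h1, h2⟩, h3⟩, ?_⟩
    rw [h3, map_smul, map_smul, map_smul, h2, map_smul, map_smul, h1, map_smul, h0]
    simp only [smul_smul, sg_xor]
    congr 1
    calc sg F c * (sg F b * (sg F a * (sg F a * sg F b * sg F c * sg F d)))
        = (sg F a * sg F a) * (sg F b * sg F b) * (sg F c * sg F c) * sg F d := by ring
      _ = sg F d := by simp only [sg_mul_sg, one_mul]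

theorem finrank_pm {X w a : (Module.End F V)ˣ} [FiniteDimensional F V] (h2 : (2 : F) ≠ 0) (hw : w * w = 1)
    (h : Pm (X * w * X⁻¹) a) :
    finrank F (E a true) = finrank F (E w true) ∨ finrank F (E a true) + finrank F (E w true) = finrank F V := by
  rcases h with h | h
  · left
    rw [← h, ← E_conj, finrank_map_le]
  · right
    have h1 : a = -(X * w * X⁻¹) := by rw [h, neg_neg]
    rw [h1, E_neg, ← E_conj, finrank_map_le, ← finrank_top F V, two_split h2 hw ⊤ (St.top w), top_inf_eq, top_inf_eq]
    rfl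

theorem arith (n : ℕ) (d1 : Bool → ℕ) (d2 : Bool → Bool → ℕ) (d3 : Bool → Bool → Bool → ℕ)
    (d4 : Bool → Bool → Bool → Bool → ℕ) (dAC : Bool → Bool → ℕ) (x12 x13 : ℕ)
    (t0 : n = d1 false + d1 true) (t1 : ∀ a, d1 a = d2 a false + d2 a true)
    (t2 : ∀ a b, d2 a b = d3 a b false + d3 a b true) (t3 : ∀ a b c, d3 a b c = d4 a b c false + d4 a b c true)
    (t4 : x12 = d2 false true + d2 true false) (t5 : x13 = dAC false true + dAC true false)
    (t6 : ∀ a c, dAC a c = d3 a false c + d3 a true c)
    (t7 : ∀ a b c d, d4 a b c d = d4 (xor (xor (xor a b) c) d) a b c)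
    (t8 : x12 = d1 true ∨ x12 + d1 true = n) (t9 : x13 = d1 true ∨ x13 + d1 true = n)
    (hn : n = 13 ∨ n = 14) : d1 true = 0 := by
  simp only [Bool.forall_bool] at t1 t2 t3 t6 t7
  simp only [Bool.xor_false, Bool.xor_true, Bool.not_false, Bool.not_true] at t7
  omega

/-- **Dimensions.** -/
theorem dims [FiniteDimensional F V] (h2 : (2 : F) ≠ 0) (u H X Y : (Module.End F V)ˣ) (h5 : cj H u 5 = u)
    (hu : u * u = 1) (c1 : cj H u 1 * u = u * cj H u 1) (c2 : cj H u 2 * u = u * cj H u 2)
    (hp : u * cj H u 1 * cj H u 2 * cj H u 3 = cj H u 4) (hX : Pm (X * u * X⁻¹) (u * cj H u 1))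
    (hY : Pm (Y * u * Y⁻¹) (u * cj H u 2)) (hn : finrank F V = 13 ∨ finrank F V = 14) : u = 1 := by
  have sq : ∀ k, cj H u k * cj H u k = 1 := fun k => by rw [← cj_mul, hu, cj_one]
  have C1 : ∀ k, cj H u (k + 1) * cj H u k = cj H u k * cj H u (k + 1) := by
    intro k
    have := congrArg (fun g => cj H g k) c1
    simp only [cj_mul, cj_cj] at this
    rwa [add_comm 1 k] at this
  have C2 : ∀ k, cj H u (k + 2) * cj H u k = cj H u k * cj H u (k + 2) := by
    intro k
    have := congrArg (fun g => cj H g k) c2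
    simp only [cj_mul, cj_cj] at this
    rwa [add_comm 2 k] at this
  have C3 : cj H u 3 * u = u * cj H u 3 := by
    have := C2 3
    rw [show 3 + 2 = 5 from rfl, h5] at this
    exact this.symm
  have e1 := C1 1
  have e2 := C2 1
  have e3 := C1 2
  have hH : ∀ k, H * cj H u k * H⁻¹ = cj H u (k + 1) := fun k => (cj_succ H u k).symm
  have g1 := hH 0
  have g2 := hH 1
  have g3 := hH 2
  have g4 := hH 3
  rw [cj_zero] at g1
  simp only [zero_add, Nat.reduceAdd] at g1 g2 g3 g4 e1 e2 e3
  rw [← hp] at g4
  set A := u with hA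
  set B := cj H u 1 with hB
  set C := cj H u 2 with hC
  set D := cj H u 3 with hD
  have sB : B * B = 1 := sq 1
  have sC : C * C = 1 := sq 2
  have sD : D * D = 1 := sq 3
  -- sixteen weight spaces
  have t0 : finrank F V = finrank F (E A false) + finrank F (E A true) := by
    rw [← finrank_top F V, two_split h2 hu ⊤ (St.top A), top_inf_eq, top_inf_eq]
  have t1 : ∀ a, finrank F (E A a) = finrank F (E A a ⊓ E B false : Submodule F V) +
      finrank F (E A a ⊓ E B true : Submodule F V) := fun a => two_split h2 sB _ (St.E c1 a)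
  have t2 : ∀ a b, finrank F (E A a ⊓ E B b : Submodule F V) = finrank F (E A a ⊓ E B b ⊓ E C false : Submodule F V) +
      finrank F (E A a ⊓ E B b ⊓ E C true : Submodule F V) := fun a b =>
    two_split h2 sC _ ((St.E c2 a).inf (St.E e1 b))
  have t3 : ∀ a b c, finrank F (E A a ⊓ E B b ⊓ E C c : Submodule F V) =
      finrank F (E A a ⊓ E B b ⊓ E C c ⊓ E D false : Submodule F V) +
      finrank F (E A a ⊓ E B b ⊓ E C c ⊓ E D true : Submodule F V) := fun a b c =>
    two_split h2 sD _ (((St.E C3 a).inf (St.E e2 b)).inf (St.E e3 c))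
  have t4 : finrank F (E (A * B) true) = finrank F (E A false ⊓ E B true : Submodule F V) +
      finrank F (E A true ⊓ E B false : Submodule F V) := by
    rw [two_split h2 hu (E (A * B) true) (St.E (by rw [mul_assoc, c1]) true), E_mul_inf hu, E_mul_inf hu]
    rfl
  have t5 : finrank F (E (A * C) true) = finrank F (E A false ⊓ E C true : Submodule F V) +
      finrank F (E A true ⊓ E C false : Submodule F V) := by
    rw [two_split h2 hu (E (A * C) true) (St.E (by rw [mul_assoc, c2]) true), E_mul_inf hu, E_mul_inf hu]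
    rfl
  have t6 : ∀ a c, finrank F (E A a ⊓ E C c : Submodule F V) = finrank F (E A a ⊓ E B false ⊓ E C c : Submodule F V) +
      finrank F (E A a ⊓ E B true ⊓ E C c : Submodule F V) := fun a c => by
    rw [two_split h2 sB (E A a ⊓ E C c) ((St.E c1 a).inf (St.E e1.symm c)), inf_right_comm, inf_right_comm (E A a) (E C c)]
  have t7 : ∀ a b c d, finrank F (E A a ⊓ E B b ⊓ E C c ⊓ E D d : Submodule F V) =
      finrank F (E A (xor (xor (xor a b) c) d) ⊓ E B a ⊓ E C b ⊓ E D c : Submodule F V) := by
    intro a b c d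
    rw [← finrank_map_le H, map_inf_le, map_inf_le, map_inf_le, E_conj, E_conj, E_conj, E_conj, g1, g2, g3, g4, E_four]
  have t8 := finrank_pm h2 hu hX
  have t9 := finrank_pm h2 hu hY
  have hz : finrank F (E A true) = 0 :=
    arith (finrank F V) (fun a => finrank F (E A a)) (fun a b => finrank F (E A a ⊓ E B b : Submodule F V))
      (fun a b c => finrank F (E A a ⊓ E B b ⊓ E C c : Submodule F V))
      (fun a b c d => finrank F (E A a ⊓ E B b ⊓ E C c ⊓ E D d : Submodule F V))
      (fun a c => finrank F (E A a ⊓ E C c : Submodule F V)) _ _ t0 t1 t2 t3 t4 t5 t6 t7 t8 t9 hn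
  have h7 : finrank F (E A false) = finrank F V := by omega
  have h8 : E A false = ⊤ := Submodule.eq_top_of_finrank_eq h7
  apply Units.ext
  ext x
  have h9 : x ∈ E A false := by rw [h8]; trivial
  rw [mem_E, sg_false, one_smul] at h9
  exact h9

end

end Cfsg.Agent.H405.EPS.Dims
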