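import Mathlib

/-!
Weights of an elementary abelian 3-group normalized by a group of order 11: a linear group over an algebraically closed
field of characteristic different from 3, stable under a semilinear map inverting the cube roots of unity, has degree at
least 22.
-/

set_option autoImplicit false

namespace Cfsg.Agent.H405.EPS.Eleven

open Module

/-- powers of an element of order 11 indexed by `ZMod 11` -/
def T {G : Type*} [Group G] (t : G) (x : ZMod 11) : G := t ^ x.val

/-- conjugates -/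
def g {G : Type*} [Group G] (t z : G) (x : ZMod 11) : G := T t x * z * (T t x)⁻¹

section

variable {G : Type*} [Group G] {t z : G}

theorem T_add (ht : t ^ 11 = 1) (x y : ZMod 11) : T t (x + y) = T t x * T t y := by
  rw [T, T, T, ZMod.val_add, ← pow_add]
  exact (pow_eq_pow_mod _ ht).symm

theorem T_nat (ht : t ^ 11 = 1) (n : ℕ) : T t (n : ZMod 11) = t ^ n := by
  rw [T, ZMod.val_natCast]
  exact (pow_eq_pow_mod _ ht).symm

theorem T_zero : T t 0 = 1 := by rw [T, ZMod.val_zero, pow_zero]

theorem T_neg (ht : t ^ 11 = 1) (x : ZMod 11) : T t (-x) = (T t x)⁻¹ := by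
  apply eq_inv_of_mul_eq_one_left
  rw [← T_add ht, neg_add_cancel, T_zero]

theorem g_zero : g t z 0 = z := by rw [g, T_zero]; simp

theorem g_conj (ht : t ^ 11 = 1) (x y : ZMod 11) : T t y * g t z x * (T t y)⁻¹ = g t z (x + y) := by
  rw [g, g, add_comm x y, T_add ht]
  simp only [mul_assoc, mul_inv_rev]

theorem g_mul_T (ht : t ^ 11 = 1) (x y : ZMod 11) : g t z x * T t y = T t y * g t z (x - y) := by
  have := g_conj (z := z) ht (x - y) y
  rw [sub_add_cancel] at this
  rw [← this, inv_mul_cancel_right]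

theorem g_comm_zero (ht : t ^ 11 = 1) (hc : ∀ k ≤ 5, z * (t ^ k * z * (t ^ k)⁻¹) = (t ^ k * z * (t ^ k)⁻¹) * z)
    (x : ZMod 11) : Commute z (g t z x) := by
  have h1 : ∀ x : ZMod 11, x.val ≤ 5 → Commute z (g t z x) := fun x hx => hc _ hx
  rcases le_or_gt x.val 5 with h | h
  · exact h1 x h
  · have h2 : (-x).val ≤ 5 := by
      haveI : NeZero x := ⟨by rintro rfl; simp at h⟩
      rw [ZMod.val_neg_of_ne_zero]
      omega
    have h3 := h1 (-x) h2
    have h4 : Commute (T t x * z * (T t x)⁻¹) (T t x * g t z (-x) * (T t x)⁻¹) := by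
      have := h3.map (MulAut.conj (T t x)).toMonoidHom
      simpa [MulAut.conj_apply] using this
    rw [g_conj ht, neg_add_cancel, g_zero] at h4
    exact h4.symm

theorem g_comm (ht : t ^ 11 = 1) (hc : ∀ k ≤ 5, z * (t ^ k * z * (t ^ k)⁻¹) = (t ^ k * z * (t ^ k)⁻¹) * z)
    (x y : ZMod 11) : Commute (g t z x) (g t z y) := by
  have h3 := g_comm_zero ht hc (y - x)
  have h4 : Commute (T t x * z * (T t x)⁻¹) (T t x * g t z (y - x) * (T t x)⁻¹) := by
    have := h3.map (MulAut.conj (T t x)).toMonoidHom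
    simpa [MulAut.conj_apply] using this
  rw [g_conj ht, sub_add_cancel] at h4
  exact h4

end

section

variable {K V : Type*} [Field K] [AddCommGroup V] [Module K V]

/-- joint eigenvector -/
def JE (t z : (Module.End K V)ˣ) (c : ZMod 11 → K) (v : V) : Prop :=
  ∀ x, ((g t z x : (Module.End K V)ˣ) : Module.End K V) v = c x • v

theorem mul_apply' (a b : (Module.End K V)ˣ) (x : V) :
    ((a * b : (Module.End K V)ˣ) : Module.End K V) x = (a : Module.End K V) ((b : Module.End K V) x) := rfl

variable {t z : (Module.End K V)ˣ}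

theorem JE.shift (ht : t ^ 11 = 1) {c : ZMod 11 → K} {v : V} (h : JE t z c v) (y : ZMod 11) :
    JE t z (fun x => c (x - y)) (((T t y : (Module.End K V)ˣ) : Module.End K V) v) := by
  intro x
  rw [← mul_apply', g_mul_T ht, mul_apply', h, map_smul]

theorem g_pow_three (hz : z ^ 3 = 1) (x : ZMod 11) : g t z x ^ 3 = 1 := by
  have : g t z x ^ 3 = T t x * z ^ 3 * (T t x)⁻¹ := by
    rw [g, conj_pow]
  rw [this, hz, mul_one, mul_inv_cancel]

theorem pow_apply_of {w : (Module.End K V)ˣ} {c : K} {v : V} (h : (w : Module.End K V) v = c • v) (n : ℕ) :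
    ((w ^ n : (Module.End K V)ˣ) : Module.End K V) v = c ^ n • v := by
  induction n with
  | zero => rw [pow_zero, pow_zero, one_smul]; rfl
  | succ n ih => rw [pow_succ, mul_apply', h, map_smul, ih, smul_smul, ← pow_succ']

theorem JE.cube (hz : z ^ 3 = 1) {c : ZMod 11 → K} {v : V} (h : JE t z c v) (hv : v ≠ 0) (x : ZMod 11) :
    c x ^ 3 = 1 := by
  have h1 := pow_apply_of (h x) 3
  rw [g_pow_three hz] at h1
  have h2 : (c x ^ 3 - 1) • v = 0 := by
    rw [sub_smul, ← h1, one_smul]
    exact sub_self v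
  exact sub_eq_zero.mp ((smul_eq_zero.1 h2).resolve_right hv)

theorem JE.prod (ht : t ^ 11 = 1) {c : ZMod 11 → K} {v : V} (h : JE t z c v) (n : ℕ) :
    (((z * t) ^ n * (t ^ n)⁻¹ : (Module.End K V)ˣ) : Module.End K V) v = (∏ k ∈ Finset.range n, c k) • v := by
  induction n with
  | zero => simp
  | succ n ih =>
    have e : (z * t) ^ (n + 1) * (t ^ (n + 1))⁻¹ = ((z * t) ^ n * (t ^ n)⁻¹) * g t z (n : ZMod 11) := by
      rw [g, T_nat ht, pow_succ, pow_succ]
      simp [mul_assoc]
    rw [e, mul_apply', h, map_smul, ih, smul_smul, Finset.prod_range_succ, mul_comm]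

theorem JE.const (ht : t ^ 11 = 1) (hz : z ^ 3 = 1) (hzt : (z * t) ^ 11 = 1) {c : ZMod 11 → K} {v : V}
    (h : JE t z c v) (hv : v ≠ 0) (hc : ∀ x, c x = c 0) : c = 1 := by
  have h1 := h.prod ht 11
  rw [hzt, ht, inv_one, mul_one] at h1
  have h2 : ∏ k ∈ Finset.range 11, c (k : ZMod 11) = c 0 ^ 11 := by
    have : ∏ k ∈ Finset.range 11, c (k : ZMod 11) = ∏ k ∈ Finset.range 11, c 0 :=
      Finset.prod_congr rfl (fun k _ => hc _)
    rw [this, Finset.prod_const, Finset.card_range]
  rw [h2] at h1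
  have h3 : (c 0 ^ 11 - 1) • v = 0 := by
    rw [sub_smul, ← h1, one_smul]
    exact sub_self v
  have h4 : c 0 ^ 11 = 1 := sub_eq_zero.mp ((smul_eq_zero.1 h3).resolve_right hv)
  have h5 := h.cube hz hv 0
  have h6 : c 0 = 1 := by
    have e1 : c 0 ^ 11 = (c 0 ^ 3) ^ 3 * c 0 ^ 2 := by ring
    rw [h4, h5, one_pow, one_mul] at e1
    have e2 : c 0 ^ 3 = c 0 ^ 2 * c 0 := by ring
    rw [h5, ← e1, one_mul] at e2
    exact e2.symm
  funext x
  rw [hc x, h6]
  rfl

/-- A function on `ZMod 11` with a nonzero period is constant. -/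
theorem const_of_period {α : Type*} {c : ZMod 11 → α} {d : ZMod 11} (hd : d ≠ 0) (h : ∀ x, c (x + d) = c x) (x : ZMod 11) :
    c x = c 0 := by
  haveI : Fact (Nat.Prime 11) := ⟨by norm_num⟩
  have h1 : ∀ n : ℕ, c (n • d) = c 0 := by
    intro n
    induction n with
    | zero => simp
    | succ n ih => rw [succ_nsmul, h, ih]
  have h2 := h1 (x * d⁻¹).val
  rw [nsmul_eq_mul, ZMod.natCast_zmod_val, mul_assoc, inv_mul_cancel₀ hd, mul_one] at h2
  exact h2

theorem const_of_shift {α : Type*} {c : ZMod 11 → α} {a b : ZMod 11} (hab : a ≠ b) (h : ∀ x, c (x - a) = c (x - b))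
    (x : ZMod 11) : c x = c 0 := by
  apply const_of_period (d := a - b) (sub_ne_zero.mpr hab)
  intro y
  have := h (y + a)
  rw [add_sub_cancel_right] at this
  rw [this]
  congr 1
  ring

theorem pow_q {F : Type*} [Field F] {x : F} (hx : x ^ 3 = 1) {q : ℕ} (hq : q % 3 = 2) : x ^ q = x ^ 2 := by
  rw [pow_eq_pow_mod q hx, hq]

/-- the joint generalized eigenspace -/
theorem JE_of_mem (h3 : (3 : K) ≠ 0) (hz : z ^ 3 = 1) {c : ZMod 11 → K} {v : V}
    (hv : v ∈ ⨅ x, Module.End.maxGenEigenspace ((g t z x : (Module.End K V)ˣ) : Module.End K V) (c x)) :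
    JE t z c v := by
  intro x
  have hss : ((g t z x : (Module.End K V)ˣ) : Module.End K V).IsSemisimple := by
    apply Module.End.isSemisimple_of_squarefree_aeval_eq_zero (p := (Polynomial.X ^ 3 - 1 : Polynomial K))
    · exact (Polynomial.X_pow_sub_one_separable_iff.mpr (by exact_mod_cast h3)).squarefree
    · have := congrArg (fun u : (Module.End K V)ˣ => (u : Module.End K V)) (g_pow_three (t := t) hz x)
      simp only [Units.val_pow_eq_pow_val, Units.val_one] at this
      simp [this]
  have h1 := (Submodule.mem_iInf _).mp hv x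
  rw [hss.isFinitelySemisimple.maxGenEigenspace_eq_eigenspace, Module.End.mem_eigenspace_iff] at h1
  exact h1

theorem JE.mem {c : ZMod 11 → K} {v : V} (h : JE t z c v) :
    v ∈ ⨅ x, Module.End.maxGenEigenspace ((g t z x : (Module.End K V)ˣ) : Module.End K V) (c x) := by
  rw [Submodule.mem_iInf]
  intro x
  exact Module.End.eigenspace_le_maxGenEigenspace (Module.End.mem_eigenspace_iff.mpr (h x))

theorem exists_JE [FiniteDimensional K V] [IsAlgClosed K] (h3 : (3 : K) ≠ 0) (hz : z ^ 3 = 1) (hz1 : z ≠ 1)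
    (ht : t ^ 11 = 1) (hc : ∀ k ≤ 5, z * (t ^ k * z * (t ^ k)⁻¹) = (t ^ k * z * (t ^ k)⁻¹) * z) :
    ∃ (c : ZMod 11 → K) (v : V), v ≠ 0 ∧ c ≠ 1 ∧ JE t z c v := by
  by_contra hcon
  push Not at hcon
  have hmaps : ∀ (i j : ZMod 11) (φ : K), Set.MapsTo (((g t z i : (Module.End K V)ˣ) : Module.End K V))
      (Module.End.maxGenEigenspace ((g t z j : (Module.End K V)ˣ) : Module.End K V) φ)
      (Module.End.maxGenEigenspace ((g t z j : (Module.End K V)ˣ) : Module.End K V) φ) := by
    intro i j φ
    apply Module.End.mapsTo_maxGenEigenspace_of_comm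
    have := g_comm ht hc j i
    exact Units.ext_iff.mp this
  have htop := Module.End.iSup_iInf_maxGenEigenspace_eq_top_of_forall_mapsTo
    (fun x : ZMod 11 => ((g t z x : (Module.End K V)ˣ) : Module.End K V)) hmaps
    (fun x => Module.End.iSup_maxGenEigenspace_eq_top _)
  have hle : (⨆ χ : ZMod 11 → K, ⨅ i, Module.End.maxGenEigenspace ((g t z i : (Module.End K V)ˣ) : Module.End K V) (χ i))
      ≤ ⨅ i, Module.End.maxGenEigenspace ((g t z i : (Module.End K V)ˣ) : Module.End K V) ((1 : ZMod 11 → K) i) := by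
    apply iSup_le
    intro χ
    by_cases hχ : χ = 1
    · rw [hχ]
    · intro v hv
      have h1 := JE_of_mem h3 hz hv
      by_cases hv0 : v = 0
      · rw [hv0]; exact Submodule.zero_mem _
      · exact absurd h1 (hcon χ v hv0 hχ)
  apply hz1
  apply Units.ext
  ext v
  have h1 : v ∈ ⨅ i, Module.End.maxGenEigenspace ((g t z i : (Module.End K V)ˣ) : Module.End K V)
      ((1 : ZMod 11 → K) i) := hle (by rw [htop]; trivial)
  have h2 := JE_of_mem h3 hz h1 0
  rw [g_zero] at h2
  rw [h2]
  simp

/-- **The bound 22.** -/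
theorem twenty_two [FiniteDimensional K V] [IsAlgClosed K] (h3 : (3 : K) ≠ 0) (hz : z ^ 3 = 1) (hz1 : z ≠ 1)
    (ht : t ^ 11 = 1) (hzt : (z * t) ^ 11 = 1)
    (hc : ∀ k ≤ 5, z * (t ^ k * z * (t ^ k)⁻¹) = (t ^ k * z * (t ^ k)⁻¹) * z)
    {q : ℕ} (hq : q % 3 = 2) (φ : V → V) (φ0 : ∀ v, v ≠ 0 → φ v ≠ 0) (φs : ∀ (c : K) v, φ (c • v) = c ^ q • φ v)
    (φz : ∀ v, φ ((z : Module.End K V) v) = (z : Module.End K V) (φ v))
    (φt : ∀ v, φ ((t : Module.End K V) v) = (t : Module.End K V) (φ v)) : 22 ≤ finrank K V := by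
  obtain ⟨c, v, hv, hc1, h⟩ := exists_JE h3 hz hz1 ht hc
  have φT : ∀ (n : ℕ) (x : V), φ (((t ^ n : (Module.End K V)ˣ) : Module.End K V) x) =
      ((t ^ n : (Module.End K V)ˣ) : Module.End K V) (φ x) := by
    intro n
    induction n with
    | zero => intro x; simp
    | succ n ih => intro x; rw [pow_succ, mul_apply', ih, φt, ← mul_apply']
  have φTi : ∀ (n : ℕ) (x : V), φ ((((t ^ n)⁻¹ : (Module.End K V)ˣ) : Module.End K V) x) =
      (((t ^ n)⁻¹ : (Module.End K V)ˣ) : Module.End K V) (φ x) := by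
    intro n x
    have h1 := φT n ((((t ^ n)⁻¹ : (Module.End K V)ˣ) : Module.End K V) x)
    rw [← mul_apply', mul_inv_cancel, Units.val_one, Module.End.one_apply] at h1
    rw [h1, ← mul_apply', inv_mul_cancel, Units.val_one, Module.End.one_apply]
  have φg : ∀ (x : ZMod 11) (y : V), φ (((g t z x : (Module.End K V)ˣ) : Module.End K V) y) =
      ((g t z x : (Module.End K V)ˣ) : Module.End K V) (φ y) := by
    intro x y
    rw [g, T, mul_apply', mul_apply', φT, φz, φTi, ← mul_apply', ← mul_apply']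
  have hφ : ∀ {c' : ZMod 11 → K} {v' : V}, JE t z c' v' → JE t z (fun x => c' x ^ q) (φ v') := by
    intro c' v' h' x
    rw [← φg, h', φs]
  -- the 22 weights
  let wt : ZMod 11 × Bool → (ZMod 11 → K) := fun p => if p.2 then fun x => c (x - p.1) ^ q else fun x => c (x - p.1)
  let vec : ZMod 11 × Bool → V := fun p =>
    if p.2 then φ (((T t p.1 : (Module.End K V)ˣ) : Module.End K V) v)
    else ((T t p.1 : (Module.End K V)ˣ) : Module.End K V) v
  have hJ : ∀ p, JE t z (wt p) (vec p) := by
    rintro ⟨y, b⟩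
    cases b
    · exact h.shift ht y
    · exact hφ (h.shift ht y)
  have hT0 : ∀ y, ((T t y : (Module.End K V)ˣ) : Module.End K V) v ≠ 0 := by
    intro y h0
    have := congrArg (fun x => (((T t y)⁻¹ : (Module.End K V)ˣ) : Module.End K V) x) h0
    simp only [map_zero] at this
    rw [← mul_apply', inv_mul_cancel, Units.val_one, Module.End.one_apply] at this
    exact hv this
  have hvec : ∀ p, vec p ≠ 0 := by
    rintro ⟨y, b⟩
    cases b
    · exact hT0 y
    · exact φ0 _ (hT0 y)
  have hcube : ∀ x, c x ^ 3 = 1 := h.cube hz hv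
  have hpq : ∀ x, c x ^ q = c x ^ 2 := fun x => pow_q (hcube x) hq
  have hnc : ¬ ∀ x, c x = c 0 := fun hh => hc1 (h.const ht hz hzt hv hh)
  have h11 : (2 : ZMod 11) ≠ 0 := by decide
  haveI : Fact (Nat.Prime 11) := ⟨by norm_num⟩
  -- mixed case
  have hmix : ∀ a b : ZMod 11, (∀ x, c (x - a) = c (x - b) ^ q) → False := by
    intro a b hab
    by_cases e : a = b
    · subst e
      have h4 : ∀ x, c x = 1 := by
        intro x
        have h5 := hab (x + a)
        rw [add_sub_cancel_right, hpq] at h5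
        have h6 : c x * c x ^ 2 = 1 := by rw [← hcube x]; ring
        rw [← h5] at h6
        have h7 := hcube x
        rw [pow_succ, pow_two, h6, one_mul] at h7
        exact h7
      exact hnc fun x => by rw [h4, h4]
    · have h4 : ∀ x, c (x - 2 * a) = c (x - 2 * b) := by
        intro x
        have e1 : c (x - 2 * a) = c (x - a - b) ^ q := by
          have := hab (x - a)
          rw [← this]; congr 1; ring
        have e2 : c (x - a - b) = c (x - 2 * b) ^ q := by
          have := hab (x - b)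
          rw [show x - a - b = x - b - a by ring, this]
          congr 2; ring
        rw [e1, e2, hpq, ← pow_mul, mul_comm 2 q, pow_mul, hpq]
        have h7 := hcube (x - 2 * b)
        calc (c (x - 2 * b) ^ 2) ^ 2 = c (x - 2 * b) ^ 3 * c (x - 2 * b) := by ring
          _ = c (x - 2 * b) := by rw [h7, one_mul]
      apply hnc
      apply const_of_shift (a := 2 * a) (b := 2 * b) _ h4
      intro h5
      exact e (mul_left_cancel₀ h11 h5)
  have hinj : Function.Injective wt := by
    rintro ⟨a, b⟩ ⟨a', b'⟩ hab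
    cases b <;> cases b'
    · have h4 : ∀ x, c (x - a) = c (x - a') := fun x => congrFun hab x
      by_cases e : a = a'
      · rw [e]
      · exact absurd (const_of_shift e h4) hnc
    · exact (hmix a a' fun x => congrFun hab x).elim
    · exact (hmix a' a fun x => (congrFun hab x).symm).elim
    · have h4 : ∀ x, c (x - a) ^ q = c (x - a') ^ q := fun x => congrFun hab x
      by_cases e : a = a'
      · rw [e]
      · apply absurd (const_of_shift e _) hnc
        intro x
        have h5 := h4 x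
        rw [hpq, hpq] at h5
        have h6 := hcube (x - a)
        have h7 := hcube (x - a')
        have h8 : (c (x - a) ^ 2) ^ 2 = (c (x - a') ^ 2) ^ 2 := by rw [h5]
        calc c (x - a) = c (x - a) ^ 3 * c (x - a) := by rw [h6, one_mul]
          _ = (c (x - a) ^ 2) ^ 2 := by ring
          _ = (c (x - a') ^ 2) ^ 2 := h8
          _ = c (x - a') ^ 3 * c (x - a') := by ring
          _ = c (x - a') := by rw [h7, one_mul]
  have hmaps : ∀ (i j : ZMod 11) (φ : K), Set.MapsTo (((g t z i : (Module.End K V)ˣ) : Module.End K V))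
      (Module.End.maxGenEigenspace ((g t z j : (Module.End K V)ˣ) : Module.End K V) φ)
      (Module.End.maxGenEigenspace ((g t z j : (Module.End K V)ˣ) : Module.End K V) φ) := by
    intro i j φ
    apply Module.End.mapsTo_maxGenEigenspace_of_comm
    have := g_comm ht hc j i
    exact Units.ext_iff.mp this
  have hind := Module.End.independent_iInf_maxGenEigenspace_of_forall_mapsTo
    (fun x : ZMod 11 => ((g t z x : (Module.End K V)ˣ) : Module.End K V)) hmaps
  have hind2 := hind.comp hinj
  have hli : LinearIndependent K vec := iSupIndep.linearIndependent _ hind2 (fun p => (hJ p).mem) hvec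
  have hcard := hli.fintype_card_le_finrank
  simpa [ZMod.card] using hcard

end

end Cfsg.Agent.H405.EPS.Eleven
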