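import Cfsg.Agent.H405.EPS.Eleven

/-!
The bound 22 for matrix groups over a finite field of order 2 modulo 3.
-/

set_option autoImplicit false

namespace Cfsg.Agent.H405.EPS.Eleven

open Module
open scoped MatrixGroups

section

variable {ι : Type*} [Fintype ι] [DecidableEq ι] {F K : Type*} [Field F] [Field K] [Algebra F K]

/-- base change of the natural representation -/
def R (F K : Type*) [Field F] [Field K] [Algebra F K] (ι : Type*) [Fintype ι] [DecidableEq ι] :
    GL ι F →* (Module.End K (ι → K))ˣ :=
  (Matrix.GeneralLinearGroup.toLin (n := ι) (R := K)).toMonoidHom.comp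
    (Matrix.GeneralLinearGroup.map (algebraMap F K))

theorem R_apply (a : GL ι F) (x : ι → K) :
    ((R F K ι a : (Module.End K (ι → K))ˣ) : Module.End K (ι → K)) x =
      ((a : Matrix ι ι F).map (algebraMap F K)).mulVec x := rfl

theorem R_injective : Function.Injective (R F K ι) := by
  intro a b hab
  apply Units.ext
  ext i j
  have h1 := congrArg (fun u : (Module.End K (ι → K))ˣ => (u : Module.End K (ι → K)) (Pi.single j 1) i) hab
  simp only [R_apply, Matrix.mulVec_single_one, Matrix.col_apply, Matrix.map_apply] at h1
  exact (algebraMap F K).injective h1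

theorem three_ne [Fintype F] (hq : Fintype.card F % 3 = 2) : (3 : F) ≠ 0 := by
  intro h
  have h1 : ((Fintype.card F : ℕ) : F) = 0 := FiniteField.cast_card_eq_zero F
  have h2 : Fintype.card F = 3 * (Fintype.card F / 3) + 2 := by omega
  rw [h2] at h1
  push_cast at h1
  rw [h, zero_mul, zero_add] at h1
  have h3 : (1 : F) = 3 - 2 := by norm_num
  rw [h, h1, sub_zero] at h3
  exact one_ne_zero h3

theorem twenty_two_mat [Fintype F] (hq : Fintype.card F % 3 = 2) {z t : GL ι F} (hz : z ^ 3 = 1) (hz1 : z ≠ 1)
    (ht : t ^ 11 = 1) (hzt : (z * t) ^ 11 = 1)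
    (hc : ∀ k ≤ 5, z * (t ^ k * z * (t ^ k)⁻¹) = (t ^ k * z * (t ^ k)⁻¹) * z) : 22 ≤ Fintype.card ι := by
  have h3 : (3 : AlgebraicClosure F) ≠ 0 := by
    intro h
    apply three_ne hq
    apply (algebraMap F (AlgebraicClosure F)).injective
    rw [map_zero, map_ofNat, h]
  let φ : (ι → AlgebraicClosure F) → (ι → AlgebraicClosure F) := fun x i => x i ^ Fintype.card F
  have hφ : ∀ (a : GL ι F) (x : ι → AlgebraicClosure F),
      φ (((R F (AlgebraicClosure F) ι a : (Module.End (AlgebraicClosure F) (ι → AlgebraicClosure F))ˣ) :
        Module.End (AlgebraicClosure F) (ι → AlgebraicClosure F)) x) =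
      ((R F (AlgebraicClosure F) ι a : (Module.End (AlgebraicClosure F) (ι → AlgebraicClosure F))ˣ) :
        Module.End (AlgebraicClosure F) (ι → AlgebraicClosure F)) (φ x) := by
    intro a x
    funext i
    rw [R_apply, R_apply]
    have h1 := RingHom.map_mulVec
      (FiniteField.frobeniusAlgHom F (AlgebraicClosure F) : AlgebraicClosure F →+* AlgebraicClosure F)
      ((a : Matrix ι ι F).map (algebraMap F (AlgebraicClosure F))) x i
    rw [Matrix.map_map] at h1
    have h2 : ((FiniteField.frobeniusAlgHom F (AlgebraicClosure F) : AlgebraicClosure F →+* AlgebraicClosure F) :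
        AlgebraicClosure F → AlgebraicClosure F) ∘ (algebraMap F (AlgebraicClosure F)) =
        (algebraMap F (AlgebraicClosure F)) := by
      funext y
      exact (FiniteField.frobeniusAlgHom F (AlgebraicClosure F)).commutes y
    rw [h2] at h1
    exact h1
  have hfin := twenty_two (K := AlgebraicClosure F) (V := ι → AlgebraicClosure F)
    (z := R F (AlgebraicClosure F) ι z) (t := R F (AlgebraicClosure F) ι t) h3
    (by rw [← map_pow, hz, map_one]) (fun h => hz1 (R_injective (by rw [h, map_one])))
    (by rw [← map_pow, ht, map_one]) (by rw [← map_mul, ← map_pow, hzt, map_one])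
    (by
      intro k hk
      have := congrArg (R F (AlgebraicClosure F) ι) (hc k hk)
      simpa only [map_mul, map_inv, map_pow] using this)
    hq φ
    (by
      intro v hv h0
      apply hv
      funext i
      have := congrFun h0 i
      exact pow_eq_zero_iff (Fintype.card_ne_zero) |>.mp this)
    (by
      intro c v
      funext i
      exact mul_pow c (v i) _)
    (hφ z) (hφ t)
  rwa [Module.finrank_fintype_fun_eq_card] at hfin

end

end Cfsg.Agent.H405.EPS.Eleven
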