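import Mathlib

/-!
Lifts of an elementary abelian group of order 16 through a central extension by `±1`.
-/

set_option autoImplicit false

namespace Cfsg.Agent.H405.EPS.Lift

/-- equality up to sign -/
def Pm {G : Type*} [Neg G] (a b : G) : Prop := a = b ∨ a = -b

section

variable {G : Type*} [Group G] [HasDistribNeg G]

/-- conjugate of `w` under `H ^ k` -/
def cj (H w : G) (k : ℕ) : G := H ^ k * w * (H ^ k)⁻¹

theorem cj_zero (H w : G) : cj H w 0 = w := by simp [cj]

theorem cj_succ (H w : G) (k : ℕ) : cj H w (k + 1) = H * cj H w k * H⁻¹ := by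
  simp only [cj, pow_succ', mul_inv_rev, mul_assoc]

theorem neg_inv' (a : G) : (-a)⁻¹ = -a⁻¹ := by
  apply inv_eq_of_mul_eq_one_right
  simp

/-- In a group with `-1`, five elements of square `-1` anticommuting pairwise have product different from `±1`. -/
theorem no_five (h1 : (1 : G) ≠ -1) {A B C D E : G} (hA : A * A = -1) (hB : B * B = -1) (hC : C * C = -1)
    (hD : D * D = -1) (hE : E * E = -1) (hAB : B * A = -(A * B)) (hAC : C * A = -(A * C)) (hAD : D * A = -(A * D))
    (hBC : C * B = -(B * C)) (hBD : D * B = -(B * D)) (hCD : D * C = -(C * D))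
    (hp : A * B * C * D * E = 1 ∨ A * B * C * D * E = -1) : False := by
  have hA' : ∀ x, A * (A * x) = -x := fun x => by rw [← mul_assoc, hA]; simp
  have hB' : ∀ x, B * (B * x) = -x := fun x => by rw [← mul_assoc, hB]; simp
  have hC' : ∀ x, C * (C * x) = -x := fun x => by rw [← mul_assoc, hC]; simp
  have hAB' : ∀ x, B * (A * x) = -(A * (B * x)) := fun x => by rw [← mul_assoc, hAB]; simp [mul_assoc]
  have hAC' : ∀ x, C * (A * x) = -(A * (C * x)) := fun x => by rw [← mul_assoc, hAC]; simp [mul_assoc]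
  have hAD' : ∀ x, D * (A * x) = -(A * (D * x)) := fun x => by rw [← mul_assoc, hAD]; simp [mul_assoc]
  have hBC' : ∀ x, C * (B * x) = -(B * (C * x)) := fun x => by rw [← mul_assoc, hBC]; simp [mul_assoc]
  have hBD' : ∀ x, D * (B * x) = -(B * (D * x)) := fun x => by rw [← mul_assoc, hBD]; simp [mul_assoc]
  have hCD' : ∀ x, D * (C * x) = -(C * (D * x)) := fun x => by rw [← mul_assoc, hCD]; simp [mul_assoc]
  have h2 : (A * B * C * D) * (A * B * C * D) = 1 := by
    simp only [mul_assoc, hA', hB', hC', hA, hB, hC, hAB', hAC', hAD', hBC', hBD', hCD', hD, mul_neg, neg_neg, mul_one]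
  have h3 : (A * B * C * D) * (A * B * C * D) = -1 := by
    have h4 : A * B * C * D = E ∨ A * B * C * D = -E := by
      have h5 : A * B * C * D * E * E = -(A * B * C * D) := by
        rw [mul_assoc (A * B * C * D), hE, mul_neg, mul_one]
      rcases hp with hp | hp
      · right
        rw [hp, one_mul] at h5
        rw [h5, neg_neg]
      · left
        rw [hp, neg_mul, one_mul] at h5
        exact (neg_injective h5).symm
    rcases h4 with h4 | h4
    · rw [h4, hE]
    · rw [h4, neg_mul_neg, hE]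
  exact h1 (h2.symm.trans h3)

theorem cj_mul (H a b : G) (k : ℕ) : cj H (a * b) k = cj H a k * cj H b k := by simp [cj, mul_assoc]

theorem cj_neg (H a : G) (k : ℕ) : cj H (-a) k = -cj H a k := by simp [cj]

theorem cj_one (H : G) (k : ℕ) : cj H 1 k = 1 := by simp [cj]

theorem cj_cj (H a : G) (k l : ℕ) : cj H (cj H a k) l = cj H a (k + l) := by
  simp only [cj]
  rw [add_comm k l, pow_add]
  simp only [mul_assoc, mul_inv_rev]

theorem anti {A B : G} (hA : A * A = -1) (hB : B * B = -1) (hAB : (A * B) * (A * B) = -1) :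
    B * A = -(A * B) := by
  have h1 : A * ((A * B) * (A * B)) * B = B * A := by
    calc A * ((A * B) * (A * B)) * B = (A * A) * (B * A) * (B * B) := by simp only [mul_assoc]
      _ = B * A := by rw [hA, hB]; simp
  rw [← h1, hAB]
  simp

theorem comm_of {A B : G} (hA : A * A = 1) (hB : B * B = 1) (hAB : (A * B) * (A * B) = 1) :
    B * A = A * B := by
  have h1 : A * ((A * B) * (A * B)) * B = B * A := by
    calc A * ((A * B) * (A * B)) * B = (A * A) * (B * A) * (B * B) := by simp only [mul_assoc]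
      _ = B * A := by rw [hA, hB]; simp
  rw [← h1, hAB]
  simp

theorem pm_sq {X w a : G} (h : Pm (X * w * X⁻¹) a) : a * a = X * (w * w) * X⁻¹ := by
  rcases h with h | h
  · rw [← h]; simp [mul_assoc]
  · have : a = -(X * w * X⁻¹) := by rw [h, neg_neg]
    rw [this]; simp [mul_assoc]

theorem five (H w : G) (h5 : cj H w 5 = w) : w * cj H w 1 * cj H w 2 * cj H w 3 * cj H w 4 = (w * H) ^ 5 * (H ^ 5)⁻¹ := by
  simp only [cj, pow_succ, pow_zero, one_mul]
  group

/-- The lift of the elementary abelian group. -/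
theorem lift (h1 : (1 : G) ≠ -1) (w H X Y : G) (hw : w * w = 1 ∨ w * w = -1) (hH : H ^ 5 = 1 ∨ H ^ 5 = -1)
    (hX : Pm (X * w * X⁻¹) (w * cj H w 1)) (hY : Pm (Y * w * Y⁻¹) (w * cj H w 2))
    (hp : (w * H) ^ 5 = 1 ∨ (w * H) ^ 5 = -1) :
    ∃ u : G, (u = w ∨ u = -w) ∧ cj H u 5 = u ∧ u * u = 1 ∧ cj H u 1 * u = u * cj H u 1 ∧ cj H u 2 * u = u * cj H u 2 ∧
      u * cj H u 1 * cj H u 2 * cj H u 3 = cj H u 4 ∧ Pm (X * u * X⁻¹) (u * cj H u 1) ∧
      Pm (Y * u * Y⁻¹) (u * cj H u 2) := by
  have h5 : cj H w 5 = w := by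
    rw [cj]
    rcases hH with h | h <;> rw [h] <;> simp [neg_inv']
  have hprod : w * cj H w 1 * cj H w 2 * cj H w 3 * cj H w 4 = 1 ∨
      w * cj H w 1 * cj H w 2 * cj H w 3 * cj H w 4 = -1 := by
    rw [five H w h5]
    rcases hH with h | h <;> rcases hp with h' | h' <;> rw [h, h'] <;> simp [neg_inv']
  have e1 := pm_sq hX
  have e2 := pm_sq hY
  rcases hw with hw | hw
  · rw [hw, mul_one, mul_inv_cancel] at e1 e2
    have sq : ∀ k, cj H w k * cj H w k = 1 := fun k => by rw [← cj_mul, hw, cj_one]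
    have c1 := comm_of hw (sq 1) e1
    have c2 := comm_of hw (sq 2) e2
    have hprod' : w * cj H w 1 * cj H w 2 * cj H w 3 = cj H w 4 ∨
        w * cj H w 1 * cj H w 2 * cj H w 3 = -cj H w 4 := by
      have h6 : w * cj H w 1 * cj H w 2 * cj H w 3 * cj H w 4 * cj H w 4 = w * cj H w 1 * cj H w 2 * cj H w 3 := by
        rw [mul_assoc (w * cj H w 1 * cj H w 2 * cj H w 3), sq, mul_one]
      rcases hprod with h | h <;> rw [h] at h6
      · left; rw [← h6, one_mul]
      · right; rw [← h6, neg_mul, one_mul]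
    rcases hprod' with h | h
    · exact ⟨w, Or.inl rfl, h5, hw, c1, c2, h, hX, hY⟩
    · refine ⟨-w, Or.inr rfl, by rw [cj_neg, h5], by simpa using hw, ?_, ?_, ?_, ?_, ?_⟩
      · rw [cj_neg, neg_mul_neg, neg_mul_neg, c1]
      · rw [cj_neg, neg_mul_neg, neg_mul_neg, c2]
      · simp only [cj_neg, neg_mul_neg, mul_neg, neg_mul, neg_neg]
        exact h
      · rw [cj_neg, neg_mul_neg]
        rcases hX with h | h
        · right; simp [h]
        · left; simp [h]
      · rw [cj_neg, neg_mul_neg]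
        rcases hY with h | h
        · right; simp [h]
        · left; simp [h]
  · exfalso
    rw [hw] at e1 e2
    have e1' : w * cj H w 1 * (w * cj H w 1) = -1 := by rw [e1]; simp
    have e2' : w * cj H w 2 * (w * cj H w 2) = -1 := by rw [e2]; simp
    have sq : ∀ k, cj H w k * cj H w k = -1 := fun k => by rw [← cj_mul, hw, cj_neg, cj_one]
    have c1 := anti hw (sq 1) e1'
    have c2 := anti hw (sq 2) e2'
    have C1 : ∀ k, cj H w (k + 1) * cj H w k = -(cj H w k * cj H w (k + 1)) := by
      intro k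
      have := congrArg (fun g => cj H g k) c1
      simp only [cj_mul, cj_neg, cj_cj] at this
      rwa [add_comm 1 k] at this
    have C2 : ∀ k, cj H w (k + 2) * cj H w k = -(cj H w k * cj H w (k + 2)) := by
      intro k
      have := congrArg (fun g => cj H g k) c2
      simp only [cj_mul, cj_neg, cj_cj] at this
      rwa [add_comm 2 k] at this
    have C3 : cj H w 3 * w = -(w * cj H w 3) := by
      have := C2 3
      rw [show 3 + 2 = 5 from rfl, h5] at this
      rw [this, neg_neg]
    exact no_five h1 hw (sq 1) (sq 2) (sq 3) (sq 4) c1 c2 C3 (C1 1) (C2 1) (C1 2) hprod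

end

end Cfsg.Agent.H405.EPS.Lift
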