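import Cfsg.Agent.SuzThree.Basic

/-!
Explicit elements of the Suzuki sporadic group (as words in its seven generating involutions) together with the
relations used for its projective representations of small degree.

* `v`, `h`, `x`, `y`: the conjugates of the involution `v` under powers of `h` (order 5) commute and have product 1,
  so they generate an elementary abelian group of order 16; `x`, `y` conjugate `v` to `v (h v h⁻¹)`, `v (h² v h⁻²)`.
* `z`, `t`: the conjugates of `z` (order 3) under powers of `t` (order 11) commute and have product 1.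
-/

set_option autoImplicit false
set_option maxRecDepth 100000

namespace Cfsg.Agent.H405.EPS.Words

open Cfsg.Spor Cfsg.Agent.Lib.PermNet Cfsg.Agent.Lib.PermNetOrbit Cfsg.Agent.SporadicRecognition.SuzPhi
  Cfsg.Agent.SporadicRecognition.SuzBound Cfsg.Agent.SporadicRecognition.SuzOrder
  Cfsg.Agent.SuzThree.Nets Cfsg.Agent.SuzThree.Basic

/-- word of `v` -/ def vW : List Suz.Gen := [.f, .g, .b, .a, .b, .g, .f]
/-- word of `h` -/ def hW : List Suz.Gen := [.a, .c, .b, .f]
/-- word of `x` -/ def xW : List Suz.Gen := [.a, .b, .c, .a, .b, .a]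
/-- word of `y` -/ def yW : List Suz.Gen := [.c, .b, .f, .a, .b, .c]
/-- word of `t` -/ def tW : List Suz.Gen := [.c, .b, .d, .e, .f, .g]
/-- word of `z` -/ def zW : List Suz.Gen :=
  [.a, .b, .f, .c, .d, .a, .b, .a, .b, .c, .d, .e, .c, .b, .a, .b, .a, .d, .c, .f, .b, .a]

theorem rel (w : List Suz.Gen) (hc : t5 (wd w) = true) : el w = 1 := eq_one_of_t5 (Rep.el w) hc

theorem el_pow (w : List Suz.Gen) (k : ℕ) : el (List.replicate k w).flatten = el w ^ k := by
  induction k with
  | zero => simp [el]
  | succ k ih => rw [List.replicate_succ, List.flatten_cons, el_append, ih, pow_succ']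

/-- words of the powers -/
def pw (w : List Suz.Gen) (k : ℕ) : List Suz.Gen := (List.replicate k w).flatten

theorem el_pw (w : List Suz.Gen) (k : ℕ) : el (pw w k) = el w ^ k := el_pow w k

/-- word of the conjugate `u ^ k * w * (u ^ k)⁻¹` -/
def cj (u w : List Suz.Gen) (k : ℕ) : List Suz.Gen := pw u k ++ w ++ (pw u k).reverse

theorem el_cj (u w : List Suz.Gen) (k : ℕ) : el (cj u w k) = el u ^ k * el w * (el u ^ k)⁻¹ := by
  rw [cj, el_append, el_append, el_reverse, el_pw]

theorem eq_of_rel (w w' : List Suz.Gen) (hc : t5 (wd (w ++ w'.reverse)) = true) : el w = el w' := by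
  have h1 := rel _ hc
  rw [el_append, el_reverse] at h1
  exact mul_inv_eq_one.mp h1

theorem ne_one_of_mv {w : List Suz.Gen} {p : ℕ} (hc : mv (wd w) p p = false) : el w ≠ 1 := by
  intro h
  have hφ : wperm (wd w) = 1 := by rw [← φ_el, h, map_one]
  have h1 : appWord (wd w) (2 ^ p) = 2 ^ p := by
    apply Nat.eq_of_testBit_eq
    intro i
    rw [testBit_appWord (wd_ok w), hφ]
    rfl
  rw [mv] at hc
  have h2 : Nat.beq (appWord (wd w) (Nat.pow 2 p)) (Nat.pow 2 p) = true := by
    rw [show Nat.pow 2 p = 2 ^ p from rfl, h1]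
    exact Nat.beq_refl _
  rw [h2] at hc
  exact Bool.noConfusion hc

theorem v_ne : el vW ≠ 1 := ne_one_of_mv (p := 0) (by decide +kernel)

theorem z_ne : el zW ≠ 1 := ne_one_of_mv (p := 1575) (by decide +kernel)

theorem v_sq : el vW * el vW = 1 := by
  rw [← el_append]; exact rel _ (by decide +kernel)

theorem h_pow : el hW ^ 5 = 1 := by
  rw [← el_pw]; exact rel _ (by decide +kernel)

theorem comm1 : el vW * (el hW * el vW * (el hW)⁻¹) = (el hW * el vW * (el hW)⁻¹) * el vW := by
  have := eq_of_rel (vW ++ cj hW vW 1) (cj hW vW 1 ++ vW) (by decide +kernel)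
  simpa [el_append, el_cj] using this

theorem comm2 : el vW * (el hW ^ 2 * el vW * (el hW ^ 2)⁻¹) = (el hW ^ 2 * el vW * (el hW ^ 2)⁻¹) * el vW := by
  have := eq_of_rel (vW ++ cj hW vW 2) (cj hW vW 2 ++ vW) (by decide +kernel)
  simpa [el_append, el_cj] using this

theorem vh_pow : (el vW * el hW) ^ 5 = 1 := by
  rw [← el_append, ← el_pw]; exact rel _ (by decide +kernel)

theorem x_conj : el xW * el vW * (el xW)⁻¹ = el vW * (el hW * el vW * (el hW)⁻¹) := by
  have := eq_of_rel (cj xW vW 1) (vW ++ cj hW vW 1) (by decide +kernel)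
  simpa [el_append, el_cj] using this

theorem y_conj : el yW * el vW * (el yW)⁻¹ = el vW * (el hW ^ 2 * el vW * (el hW ^ 2)⁻¹) := by
  have := eq_of_rel (cj yW vW 1) (vW ++ cj hW vW 2) (by decide +kernel)
  simpa [el_append, el_cj] using this

theorem z_pow : el zW ^ 3 = 1 := by
  rw [← el_pw]; exact rel _ (by decide +kernel)

theorem t_pow : el tW ^ 11 = 1 := by
  rw [← el_pw]; exact rel _ (by decide +kernel)

theorem zt_pow : (el zW * el tW) ^ 11 = 1 := by
  rw [← el_append, ← el_pw]; exact rel _ (by decide +kernel)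

theorem zcomm (k : ℕ) (hk : k ≤ 5) : el zW * (el tW ^ k * el zW * (el tW ^ k)⁻¹) =
    (el tW ^ k * el zW * (el tW ^ k)⁻¹) * el zW := by
  have h1 : t5 (wd ((zW ++ cj tW zW k) ++ (cj tW zW k ++ zW).reverse)) = true := by
    interval_cases k
    · decide +kernel
    · decide +kernel
    · decide +kernel
    · decide +kernel
    · decide +kernel
    · decide +kernel
  have := eq_of_rel (zW ++ cj tW zW k) (cj tW zW k ++ zW) h1
  simpa [el_append, el_cj] using this

end Cfsg.Agent.H405.EPS.Words
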