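import Cfsg.Agent.H405.EPS.Dims
import Cfsg.Agent.H405.EPS.Words

/-!
The Suzuki group and its double cover have no faithful representation of dimension 13 or 14 in odd characteristic (with
scalars `±1` only).
-/

set_option autoImplicit false

namespace Cfsg.Agent.H405.EPS.Odd

open Module Cfsg.Agent.H405.EPS.Lift Cfsg.Agent.H405.EPS.Dims Cfsg.Agent.H405.EPS.Words Cfsg.Spor
  Cfsg.Agent.SporadicRecognition.SuzPhi Cfsg.Agent.SporadicRecognition.SuzBound
  Cfsg.Agent.SporadicRecognition.SuzOrder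

theorem no_13_14 {F V : Type*} [Field F] [AddCommGroup V] [Module F V] [FiniteDimensional F V]
    (h2 : (2 : F) ≠ 0) (hn : finrank F V = 13 ∨ finrank F V = 14) {P : Type*} [Group P] (π : P →* Suz)
    (hπ : Function.Surjective π) (ρ : P →* (Module.End F V)ˣ)
    (hker : ∀ g, π g = 1 → ρ g = 1 ∨ ρ g = -1) (hker' : ∀ g, ρ g = 1 ∨ ρ g = -1 → π g = 1) : False := by
  haveI : Nontrivial V := by
    apply Module.nontrivial_of_finrank_pos (R := F)
    omega
  have h1 : (1 : (Module.End F V)ˣ) ≠ -1 := by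
    intro h
    obtain ⟨x, hx⟩ := exists_ne (0 : V)
    have h3 := congrArg (fun g : (Module.End F V)ˣ => (g : Module.End F V) x) h
    have h4 : x = -x := h3
    have h5 : (2 : F) • x = 0 := by rw [two_smul]; nth_rewrite 1 [h4]; simp
    exact hx ((smul_eq_zero.1 h5).resolve_left h2)
  have pm : ∀ a b : P, π a = π b → Pm (ρ a) (ρ b) := by
    intro a b hab
    have h3 : π (a * b⁻¹) = 1 := by rw [map_mul, map_inv, hab, mul_inv_cancel]
    rcases hker _ h3 with h4 | h4
    · left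
      rw [map_mul, map_inv] at h4
      exact mul_inv_eq_one.mp h4
    · right
      rw [map_mul, map_inv] at h4
      have h5 : ρ a = -1 * ρ b := by rw [← h4, inv_mul_cancel_right]
      rw [h5, neg_mul, one_mul]
  obtain ⟨w, hw⟩ := hπ (el vW)
  obtain ⟨H, hH⟩ := hπ (el hW)
  obtain ⟨X, hX⟩ := hπ (el xW)
  obtain ⟨Y, hY⟩ := hπ (el yW)
  have r1 : ρ w * ρ w = 1 ∨ ρ w * ρ w = -1 := by
    have := pm (w * w) 1 (by rw [map_mul, hw, v_sq, map_one])
    rw [map_mul, map_one] at this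
    exact this
  have r2 : ρ H ^ 5 = 1 ∨ ρ H ^ 5 = -1 := by
    have := pm (H ^ 5) 1 (by rw [map_pow, hH, h_pow, map_one])
    rw [map_pow, map_one] at this
    exact this
  have r3 : (ρ w * ρ H) ^ 5 = 1 ∨ (ρ w * ρ H) ^ 5 = -1 := by
    have := pm ((w * H) ^ 5) 1 (by rw [map_pow, map_mul, hw, hH, vh_pow, map_one])
    rw [map_pow, map_mul, map_one] at this
    exact this
  have r4 : Pm (ρ X * ρ w * (ρ X)⁻¹) (ρ w * Lift.cj (ρ H) (ρ w) 1) := by
    have := pm (X * w * X⁻¹) (w * (H * w * H⁻¹)) (by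
      simp only [map_mul, map_inv, hX, hw, hH]; exact x_conj)
    simp only [map_mul, map_inv] at this
    simpa [Lift.cj] using this
  have r5 : Pm (ρ Y * ρ w * (ρ Y)⁻¹) (ρ w * Lift.cj (ρ H) (ρ w) 2) := by
    have := pm (Y * w * Y⁻¹) (w * (H ^ 2 * w * (H ^ 2)⁻¹)) (by
      simp only [map_mul, map_inv, map_pow, hY, hw, hH]; exact y_conj)
    simp only [map_mul, map_inv, map_pow] at this
    exact this
  obtain ⟨u, hu, h5, huu, c1, c2, hp, hX', hY'⟩ := lift h1 (ρ w) (ρ H) (ρ X) (ρ Y) r1 r2 r4 r5 r3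
  have hu1 := dims h2 u (ρ H) (ρ X) (ρ Y) h5 huu c1 c2 hp hX' hY' hn
  have h6 : ρ w = 1 ∨ ρ w = -1 := by
    rcases hu with hu | hu
    · left; rw [← hu, hu1]
    · right
      rw [hu1] at hu
      rw [hu, neg_neg]
  have h7 := hker' w h6
  rw [hw] at h7
  exact v_ne h7

end Cfsg.Agent.H405.EPS.Odd
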