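import Cfsg.Agent.H419.EP.Big
import Cfsg.Agent.H405.EPS.Odd
import Cfsg.Agent.H405.EPS.ElevenMat

/-!
# S3499-V: socle `Suz` (helper405), task 6086: representation part

A group `P ≤ GL(n, F)` with `P / scalars ≅ Suz`, `n ≥ 13`: not possible for `|F| = 2`, `n ≤ 21`, nor for `|F| = 3`,
`n ≤ 14`. Hence no `Big A Γ S P` with `8 |Q| < 2 ^ 156`.
-/

set_option autoImplicit false

namespace Cfsg.Agent.H405.EPS

open Module Cfsg Cfsg.Geo Cfsg.Agent.H284 Cfsg.Agent.H419.EP Cfsg.Spor Cfsg.Agent.SporadicRecognition.SuzPhi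
  Cfsg.Agent.SporadicRecognition.SuzBound Cfsg.Agent.SporadicRecognition.SuzOrder Cfsg.Agent.H405.EPS.Words
open scoped MatrixGroups

section

variable {ι : Type} [Fintype ι] [DecidableEq ι] {F : Type} [Field F] {P : Subgroup (GL ι F)}

/-- the projection onto the simple group -/
def proj (e : socle P ≃* Suz) : P →* Suz := e.toMonoidHom.comp (QuotientGroup.mk' _)

theorem proj_surjective (e : socle P ≃* Suz) : Function.Surjective (proj e) :=
  e.surjective.comp (QuotientGroup.mk'_surjective _)

theorem proj_eq_one (e : socle P ≃* Suz) (g : P) : proj e g = 1 ↔ (g : GL ι F) ∈ scalars ι F := by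
  have h1 : proj e g = e (QuotientGroup.mk' ((Cfsg.Geo.scalars ι F).subgroupOf P) g) := rfl
  rw [h1, map_eq_one_iff e e.injective, QuotientGroup.mk'_apply, QuotientGroup.eq_one_iff, Subgroup.mem_subgroupOf]

/-- the natural representation -/
def nat (P : Subgroup (GL ι F)) : P →* (Module.End F (ι → F))ˣ :=
  (Matrix.GeneralLinearGroup.toLin (n := ι) (R := F)).toMonoidHom.comp P.subtype

theorem nat_apply (g : P) (x : ι → F) :
    ((nat P g : (Module.End F (ι → F))ˣ) : Module.End F (ι → F)) x = ((g : GL ι F) : Matrix ι ι F).mulVec x := rfl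

theorem no_three (e : socle P ≃* Suz) [Fintype F] (h3 : Fintype.card F = 3)
    (hn : Fintype.card ι = 13 ∨ Fintype.card ι = 14) : False := by
  have hcube : ∀ c : F, c ≠ 0 → c = 1 ∨ c = -1 := by
    intro c hc
    have h1 := FiniteField.pow_card_sub_one_eq_one c hc
    rw [h3] at h1
    have h2 : (c - 1) * (c + 1) = 0 := by
      have : c ^ 2 = 1 := h1
      linear_combination this
    rcases mul_eq_zero.mp h2 with h | h
    · left; exact sub_eq_zero.mp h
    · right; exact eq_neg_of_add_eq_zero_left h
  have h2 : (2 : F) ≠ 0 := by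
    intro h
    have h4 : ((Fintype.card F : ℕ) : F) = 0 := FiniteField.cast_card_eq_zero F
    rw [h3] at h4
    have h5 : (1 : F) = 3 - 2 := by norm_num
    rw [h] at h5
    push_cast at h4
    rw [h4, sub_zero] at h5
    exact one_ne_zero h5
  refine Odd.no_13_14 (F := F) (V := ι → F) h2 (by rw [Module.finrank_fintype_fun_eq_card]; exact hn) (proj e)
    (proj_surjective e) (nat P) ?_ ?_
  · intro g hg
    rw [proj_eq_one, mem_scalars_iff] at hg
    obtain ⟨c, hc⟩ := hg
    rcases hcube c c.ne_zero with h | h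
    · left
      apply Units.ext
      apply LinearMap.ext
      intro x
      rw [nat_apply, hc, h, one_smul, Matrix.one_mulVec]
      rfl
    · right
      apply Units.ext
      apply LinearMap.ext
      intro x
      rw [nat_apply, hc, h, neg_smul, one_smul, Matrix.neg_mulVec, Matrix.one_mulVec]
      rfl
  · intro g hg
    rw [proj_eq_one, mem_scalars_iff]
    have key : ∀ c : F, (∀ x, ((g : GL ι F) : Matrix ι ι F).mulVec x = c • x) →
        ((g : GL ι F) : Matrix ι ι F) = c • (1 : Matrix ι ι F) := by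
      intro c hx
      apply Matrix.toLin'.injective
      apply LinearMap.ext
      intro x
      rw [Matrix.toLin'_apply, Matrix.toLin'_apply, hx, Matrix.smul_mulVec, Matrix.one_mulVec]
    rcases hg with h | h
    · refine ⟨1, key _ fun x => ?_⟩
      rw [← nat_apply, h]
      simp
    · refine ⟨-1, key _ fun x => ?_⟩
      rw [← nat_apply, h]
      simp

theorem no_two (e : socle P ≃* Suz) [Fintype F] (h2 : Fintype.card F = 2) : 22 ≤ Fintype.card ι := by
  have hsc : ∀ g : P, proj e g = 1 → g = 1 := by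
    intro g hg
    rw [proj_eq_one, mem_scalars_iff] at hg
    obtain ⟨c, hc⟩ := hg
    have h1 : (c : F) = 1 := by
      have := FiniteField.pow_card_sub_one_eq_one (c : F) c.ne_zero
      rw [h2] at this
      simpa using this
    rw [h1, one_smul] at hc
    apply Subtype.ext
    apply Units.ext
    rw [hc]
    rfl
  have hinj : Function.Injective (proj e) := (injective_iff_map_eq_one _).mpr hsc
  obtain ⟨z, hz⟩ := proj_surjective e (el zW)
  obtain ⟨t, ht⟩ := proj_surjective e (el tW)
  have up : ∀ a b : P, proj e a = proj e b → (a : GL ι F) = b := fun a b h => by rw [hinj h]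
  refine Eleven.twenty_two_mat (F := F) (z := (z : GL ι F)) (t := (t : GL ι F)) (by rw [h2]) ?_ ?_ ?_ ?_ ?_
  · have := up (z ^ 3) 1 (by rw [map_pow, hz, z_pow, map_one])
    simpa using this
  · intro h
    have h1 : z = 1 := Subtype.ext h
    rw [h1, map_one] at hz
    exact z_ne hz.symm
  · have := up (t ^ 11) 1 (by rw [map_pow, ht, t_pow, map_one])
    simpa using this
  · have := up ((z * t) ^ 11) 1 (by rw [map_pow, map_mul, hz, ht, zt_pow, map_one])
    simpa using this
  · intro k hk
    have := up (z * (t ^ k * z * (t ^ k)⁻¹)) ((t ^ k * z * (t ^ k)⁻¹) * z) (by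
      simp only [map_mul, map_inv, map_pow, hz, ht]; exact zcomm k hk)
    simpa using this

end

variable {Q : Type} [Group Q] [Finite Q] {A : Subgroup Q} {Γ : Subgroup (MulAut Q)} {ι : Type} [Fintype ι]
    [DecidableEq ι] {F : Type} [Field F] [Fintype F] {S P : Subgroup (GL ι F)}

/-- **Socle `Suz`** under the order bound `|Q| < 2 ^ 153`. -/
theorem suz_of_card (b : Big A Γ S P) (h : IsoSuz (socle P)) (hB : Nat.card Q < 2 ^ 153) : False := by
  obtain ⟨e⟩ := h
  have hn := b.thirteen
  have hF := b.two_le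
  have hord := b.ord
  have hmul : ∀ k, k ≤ Fintype.card ι → Fintype.card F ^ (k * (k - 1) / 2) ≤ 8 * Nat.card Q := by
    intro k hk
    refine le_trans (Nat.pow_le_pow_right (by omega) (Nat.div_le_div_right ?_)) hord
    exact Nat.mul_le_mul hk (Nat.sub_le_sub_right hk 1)
  rcases Nat.lt_or_ge (Fintype.card F) 4 with h4 | h4
  · interval_cases hc : Fintype.card F
    · -- two elements
      have h22 := no_two e hc
      have h1 := hmul 22 h22
      have h2 : (2 : ℕ) ^ (22 * (22 - 1) / 2) = 2 ^ 231 := by norm_num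
      rw [h2] at h1
      have h3 : (2 : ℕ) ^ 231 = 8 * 2 ^ 228 := by norm_num
      have h5 : (2 : ℕ) ^ 153 ≤ 2 ^ 228 := Nat.pow_le_pow_right (by norm_num) (by norm_num)
      omega
    · -- three elements
      by_cases h14 : Fintype.card ι ≤ 14
      · exact no_three e hc (by omega)
      · have h1 := hmul 15 (by omega)
        have h2 : (3 : ℕ) ^ (15 * (15 - 1) / 2) = 3 ^ 105 := by norm_num
        rw [h2] at h1
        have h3 : 8 * 2 ^ 153 ≤ (3 : ℕ) ^ 105 := by norm_num
        omega
  · have h1 := hmul 13 hn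
    have h2 : 4 ^ (13 * (13 - 1) / 2) ≤ Fintype.card F ^ (13 * (13 - 1) / 2) := Nat.pow_le_pow_left h4 _
    have h3 : (4 : ℕ) ^ (13 * (13 - 1) / 2) = 8 * 2 ^ 153 := by norm_num
    rw [h3] at h2
    omega

end Cfsg.Agent.H405.EPS
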